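import Cfsg.Agent.Lib.Helper68.ReeCube.Defs

set_option autoImplicit false

/-!
# [CARD] for S3626 (ReeCube): `L = V ⋊ Γ` is finite and arbitrarily large
-/

namespace Cfsg.Agent.Lib.Helper85.ReeCube

open Cfsg.Agent.Lib.Helper68.ReeCube

universe u

/-- [CARD] -/
theorem pkgCard : PkgCard.{u} := by
  intro F _ _ _ N
  haveI hfin : Finite (LL F (Fin (N + 1))) :=
    Finite.of_equiv _ (SemidirectProduct.equivProd).symm
  refine ⟨hfin, ?_⟩
  have hf : Function.Injective (fun i : Fin (N + 1) =>
      (SemidirectProduct.inl (Multiplicative.ofAdd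
        (Pi.single i (1 : Matrix (Fin 2) (Fin 2) F) : VV F (Fin (N + 1)))) :
        LL F (Fin (N + 1)))) := by
    intro i j hij
    have h1 := SemidirectProduct.inl_injective hij
    have h2 : (Pi.single i (1 : Matrix (Fin 2) (Fin 2) F) : VV F (Fin (N + 1)))
        = Pi.single j 1 := Multiplicative.ofAdd.injective h1
    by_contra hne
    have h3 := congrFun h2 i
    rw [Pi.single_eq_same, Pi.single_eq_of_ne hne] at h3
    exact one_ne_zero h3
  have h := Nat.card_le_card_of_injective _ hf
  rw [Nat.card_fin] at h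
  exact h

end Cfsg.Agent.Lib.Helper85.ReeCube
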